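import Groth.Agent.CycB.RelDim2
import Groth.Agent.CycB.SetupLft
import Groth.Agent.CycA.SetupField
import Groth.Agent.VarietyA.LocDim

/-!
# Dimension of the local ring of a fibre and transcendence degrees

`rtd_le_add`: for `f : X ⟶ Y` locally of finite type and `w ⤳ x` with `f w = f x`, one has
`trdeg κ(w)/κ(f w) ≤ dim O_{X_y, x} + trdeg κ(x)/κ(f x)`.
-/

set_option autoImplicit false
open CategoryTheory AlgebraicGeometry TopologicalSpace Topology
universe u

namespace Groth.Agent.Ega4fib.H118.FibreStalkDim

open Groth.Agent.CycB.RelDim Groth.Agent.CycB.LocQuot Groth.Agent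

variable {X Y : Scheme.{u}}

/-- The Krull dimension of a Noetherian local ring is a natural number. -/
theorem exists_nat_ringKrullDim (R : Type u) [CommRing R] [IsLocalRing R] [IsNoetherianRing R] :
    ∃ n : ℕ, ringKrullDim R = n := by
  have hfin : (IsLocalRing.maximalIdeal R).height < ⊤ := Ideal.height_lt_top Ideal.IsPrime.ne_top'
  obtain ⟨c, hc⟩ := ENat.ne_top_iff_exists.mp hfin.ne
  refine ⟨c, ?_⟩
  rw [← IsLocalRing.maximalIdeal_height_eq_ringKrullDim, ← hc]
  rfl

/-- Upper bound for the relative transcendence degree of a generization of `x` in a scheme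
locally of finite type over a field. -/
theorem rtd_le_add_of_field {K : Type u} [Field K] (g : X ⟶ Spec (CommRingCat.of K))
    [LocallyOfFiniteType g] {x w : X} (h : w ⤳ x) (c a : ℕ)
    (hc : ringKrullDim (X.presheaf.stalk x) = c) (ha : rtd g x = a) :
    rtd g w ≤ ((c + a : ℕ) : Cardinal.{u}) := by
  obtain ⟨m, n, hm, -, e⟩ := CycB.SetupLft.dimension_formula_specializes g
    (CycA.SetupField.isUniversallyCatenary_stalk_Spec K) h
  have h1 : ringKrullDim (Cyc.LocQuot x w h) ≤ c := by
    rw [← hc]
    exact ringKrullDim_quotient_le _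
  rw [← hm] at h1
  have h2 : m ≤ c := by exact_mod_cast h1
  have e' : (m : Cardinal.{u}) + rtd g x = (n : Cardinal.{u}) + rtd g w := e
  rw [ha] at e'
  push_cast
  calc rtd g w ≤ (n : Cardinal.{u}) + rtd g w := le_add_self
    _ = (m : Cardinal.{u}) + a := e'.symm
    _ ≤ c + a := by
      gcongr
      exact_mod_cast h2

/-- Upper bound for the relative transcendence degree of a generization of `x` in its fibre. -/
theorem rtd_le_add (f : X ⟶ Y) [LocallyOfFiniteType f] {x w : X} (h : w ⤳ x) (hf : f w = f x)
    (c a : ℕ) (hc : ringKrullDim ((f.fiber (f x)).presheaf.stalk (f.asFiber x)) = c)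
    (ha : rtd f x = a) : rtd f w ≤ ((c + a : ℕ) : Cardinal.{u}) := by
  have : w ∈ Set.range (f.fiberι (f x)) := by rw [Scheme.Hom.range_fiberι]; exact hf
  obtain ⟨w', rfl⟩ := this
  have hsp : w' ⤳ f.asFiber x := by
    refine (f.fiberι (f x)).isEmbedding.isInducing.specializes_iff.mp ?_
    rw [Scheme.Hom.fiberι_asFiber]
    exact h
  rw [← rtd_fiberToSpecResidueField]
  have : LocallyOfFiniteType (f.fiberToSpecResidueField (f x)) :=
    inferInstanceAs (LocallyOfFiniteType (Limits.pullback.snd f (Y.fromSpecResidueField (f x))))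
  refine rtd_le_add_of_field (K := Y.residueField (f x)) (f.fiberToSpecResidueField (f x)) hsp c a
    hc ?_
  exact (rtd_fiberToSpecResidueField f (f x) (f.asFiber x)).trans (by
    rw [Scheme.Hom.fiberι_asFiber]; exact ha)

end Groth.Agent.Ega4fib.H118.FibreStalkDim
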